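import Cfsg.Agent.H756.HM.Stmts
import Cfsg.Agent.H802.FusNorm

/-!
# S5175: coordinates for the main configuration (helper456)

`Crd K V W D mu lam zet` : for `V`, `W = V^x`, `D = C_V(E)`: additive coordinates `mu : V / Z → K`, `lam : W / Z → K`,
`zet : Z / D → K` (`Z = V ∩ W`) with `zet [v, w] = mu v * lam w`; `exists_crd` : they exist in the situation `Conf`.
-/

set_option autoImplicit false

namespace Cfsg.Agent.H456.HM

open Cfsg Cfsg.FusionSystem Cfsg.Agent.H756.HM Cfsg.Agent.H802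

/-- coordinates -/
structure Crd {Ω : Type*} [Group Ω] (K : Type) [Field K] (V W D : Subgroup Ω) (mu lam zet : Ω → K) : Prop where
  two : (2 : K) = 0
  elV : ∀ v ∈ V, v * v = 1
  elW : ∀ w ∈ W, w * w = 1
  com : ∀ v ∈ V, ∀ w ∈ W, v * w * v⁻¹ * w⁻¹ ∈ V ⊓ W
  mu_mul : ∀ v ∈ V, ∀ v' ∈ V, mu (v * v') = mu v + mu v'
  mu_zero : ∀ v ∈ V, (mu v = 0 ↔ v ∈ W)
  mu_surj : ∀ k, ∃ v ∈ V, mu v = k
  lam_mul : ∀ w ∈ W, ∀ w' ∈ W, lam (w * w') = lam w + lam w'
  lam_zero : ∀ w ∈ W, (lam w = 0 ↔ w ∈ V)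
  lam_surj : ∀ k, ∃ w ∈ W, lam w = k
  zet_mul : ∀ z ∈ V ⊓ W, ∀ z' ∈ V ⊓ W, zet (z * z') = zet z + zet z'
  zet_zero : ∀ z ∈ V ⊓ W, (zet z = 0 ↔ z ∈ D)
  zet_surj : ∀ k, ∃ z ∈ V ⊓ W, zet z = k
  zet_com : ∀ v ∈ V, ∀ w ∈ W, zet (v * w * v⁻¹ * w⁻¹) = mu v * lam w
  D_le : D ≤ V ⊓ W

section Conf

variable {Ω : Type*} [Group Ω] {S : Subgroup Ω} {F : FusionSystem S} {K : Type} [Field K] [Fintype K]
  {V T : Subgroup Ω} {x : Ω}

theorem mem_cj {y g : Ω} {H : Subgroup Ω} : g ∈ cj y H ↔ y⁻¹ * g * y ∈ H := by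
  constructor
  · rintro ⟨h, hh, rfl⟩
    have : y⁻¹ * (MulAut.conj y).toMonoidHom h * y = h := by
      show y⁻¹ * (y * h * y⁻¹) * y = h
      group
    rwa [this]
  · intro h
    refine ⟨_, h, ?_⟩
    show y * (y⁻¹ * g * y) * y⁻¹ = g
    group

theorem conj_mem_cj {y g : Ω} {H : Subgroup Ω} (h : g ∈ H) : y * g * y⁻¹ ∈ cj y H := ⟨g, h, rfl⟩

theorem card_cj (y : Ω) (H : Subgroup Ω) : Nat.card (cj y H) = Nat.card H :=
  (Nat.card_congr (H.equivMapOfInjective _ (MulAut.conj y).injective).toEquiv).symm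

theorem T_le (c : Conf F K V T x) : T ≤ S := by
  rw [← c.nor]; exact inf_le_left

theorem T_normV (c : Conf F K V T x) {t v : Ω} (ht : t ∈ T) (hv : v ∈ V) : t * v * t⁻¹ ∈ V := by
  rw [← c.nor] at ht
  exact (Subgroup.mem_normalizer_iff.1 ht.2 v).1 hv

theorem V_le_T (c : Conf F K V T x) : V ≤ T := by
  rw [← c.nor]
  exact le_inf c.V_le Subgroup.le_normalizer

theorem x_T (c : Conf F K V T x) {t : Ω} (ht : t ∈ T) : x * t * x⁻¹ ∈ T :=
  (Subgroup.mem_normalizer_iff.1 c.x_nor t).1 ht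

theorem x_T' (c : Conf F K V T x) {t : Ω} (ht : t ∈ T) : x⁻¹ * t * x ∈ T := by
  have h := (Subgroup.mem_normalizer_iff.1 c.x_nor (x⁻¹ * t * x)).2
  apply h
  have : x * (x⁻¹ * t * x) * x⁻¹ = t := by group
  rwa [this]

theorem W_le_T (c : Conf F K V T x) : cj x V ≤ T := by
  rintro _ ⟨v, hv, rfl⟩
  exact x_T c (V_le_T c hv)

theorem xW (c : Conf F K V T x) {w : Ω} (hw : w ∈ cj x V) : x * w * x⁻¹ ∈ V := by
  obtain ⟨v, hv, rfl⟩ := hw
  have h1 := T_normV c c.x_sq hv
  have : x * (MulAut.conj x).toMonoidHom v * x⁻¹ = x ^ 2 * v * (x ^ 2)⁻¹ := by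
    show x * (x * v * x⁻¹) * x⁻¹ = _
    rw [pow_two]
    group
  rw [this]
  exact h1

theorem T_normW (c : Conf F K V T x) {t w : Ω} (ht : t ∈ T) (hw : w ∈ cj x V) : t * w * t⁻¹ ∈ cj x V := by
  rw [mem_cj] at hw ⊢
  have h1 := T_normV c (x_T' c ht) hw
  have : x⁻¹ * (t * w * t⁻¹) * x = x⁻¹ * t * x * (x⁻¹ * w * x) * (x⁻¹ * t * x)⁻¹ := by group
  rwa [this]

theorem elV (c : Conf F K V T x) {v : Ω} (hv : v ∈ V) : v * v = 1 := by
  rw [← pow_two]; exact c.el v hv

theorem elW (c : Conf F K V T x) {w : Ω} (hw : w ∈ cj x V) : w * w = 1 := by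
  obtain ⟨v, hv, rfl⟩ := hw
  rw [← map_mul, elV c hv, map_one]

theorem comm_of_sq {G : Type*} [Group G] {a b : G} (ha : a * a = 1) (hb : b * b = 1) (hab : a * b * (a * b) = 1) :
    a * b = b * a := by
  have h1 : a⁻¹ = a := inv_eq_of_mul_eq_one_left ha
  have h2 : b⁻¹ = b := inv_eq_of_mul_eq_one_left hb
  have h3 : (a * b)⁻¹ = a * b := inv_eq_of_mul_eq_one_left hab
  calc a * b = (a * b)⁻¹ := h3.symm
    _ = b⁻¹ * a⁻¹ := mul_inv_rev a b
    _ = b * a := by rw [h1, h2]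

theorem commV (c : Conf F K V T x) {v w : Ω} (hv : v ∈ V) (hw : w ∈ V) : v * w = w * v :=
  comm_of_sq (elV c hv) (elV c hw) (elV c (V.mul_mem hv hw))

theorem commW (c : Conf F K V T x) {v w : Ω} (hv : v ∈ cj x V) (hw : w ∈ cj x V) : v * w = w * v :=
  comm_of_sq (elW c hv) (elW c hw) (elW c ((cj x V).mul_mem hv hw))

theorem cenV (c : Conf F K V T x) {s : Ω} (hs : s ∈ S) (h : ∀ v ∈ V, s * v = v * s) : s ∈ V := by
  rw [← c.cent]
  exact ⟨hs, Subgroup.mem_centralizer_iff.2 fun v hv => (h v hv).symm⟩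

theorem cenW (c : Conf F K V T x) {s : Ω} (hs : s ∈ S) (h : ∀ w ∈ cj x V, s * w = w * s) : s ∈ cj x V := by
  rw [mem_cj]
  apply cenV c (S.mul_mem (S.mul_mem (S.inv_mem c.x_mem) hs) c.x_mem)
  intro v hv
  have h1 := h _ (conj_mem_cj (y := x) hv)
  calc x⁻¹ * s * x * v = x⁻¹ * (s * (x * v * x⁻¹)) * x := by group
    _ = x⁻¹ * (x * v * x⁻¹ * s) * x := by rw [h1]
    _ = v * (x⁻¹ * s * x) := by group

/-- the conjugation of `w ∈ V^x` on `V`, as an element of `E` -/
theorem exists_act (c : Conf F K V T x) {w : Ω} (hw : w ∈ cj x V) :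
    ∃ e : c.E, ∀ v : V, (((e : MulAut V) v : V) : Ω) = w * v * w⁻¹ := by
  have h1 : w ∈ Subgroup.normalizer (V : Set Ω) := by
    have := W_le_T c hw
    rw [← c.nor] at this
    exact this.2
  obtain ⟨α, hα⟩ := exists_conjAut h1
  exact ⟨⟨α, c.A_le ((mem_autInducedBy_iff _ _ _).2 ⟨w, hw, hα⟩)⟩, hα⟩

theorem card_rel [Finite S] (c : Conf F K V T x) :
    Fintype.card K * Nat.card ↥(V ⊓ cj x V) = Nat.card V := by
  have h1 := card_autInducedBy_mul (cj x V) V
  rw [c.A_card] at h1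
  have h2 : centralizerIn (cj x V) V = V ⊓ cj x V := by
    ext g
    constructor
    · rintro ⟨hg, hg'⟩
      exact ⟨cenV c (T_le c (W_le_T c hg)) fun v hv => (Subgroup.mem_centralizer_iff.1 hg' v hv).symm, hg⟩
    · rintro ⟨hg, hg'⟩
      exact ⟨hg', Subgroup.mem_centralizer_iff.2 fun v hv => commV c hv hg⟩
  have h3 : normalizerIn (cj x V) V = cj x V := by
    refine le_antisymm inf_le_left fun g hg => ⟨hg, ?_⟩
    have := W_le_T c hg
    rw [← c.nor] at this
    exact this.2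
  rw [h2, h3, card_cj] at h1
  exact h1

/-- **Coordinates exist.** -/
theorem exists_crd [Finite S] (c : Conf F K V T x) :
    ∃ mu lam zet : Ω → K, Crd K V (cj x V) (fixS V c.E) mu lam zet := by
  classical
  -- characteristic 2
  have h2 : (2 : K) = 0 := by
    have h3 := Nat.cast_card_eq_zero K
    rw [c.hK] at h3
    push_cast at h3
    exact pow_eq_zero_iff (by have := c.hn; omega) |>.1 h3
  have hq : 2 ≤ Fintype.card K := by
    rw [c.hK]
    calc 2 = 2 ^ 1 := rfl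
      _ ≤ 2 ^ c.n := Nat.pow_le_pow_right (by norm_num) c.hn
  have add_self : ∀ a : K, a + a = 0 := fun a => by rw [← two_mul, h2, zero_mul]
  have neg_eq : ∀ a : K, -a = a := fun a => neg_eq_of_add_eq_zero_left (add_self a)
  set W := cj x V with hW
  have hfV : Finite V := finite_of_le c.V_le
  -- the action of `W`
  choose! act hact using fun (w : Ω) (hw : w ∈ W) => exists_act c hw
  set R : Ω → Matrix (Fin 2) (Fin 2) K := fun w => ((c.ρ (act w) : Matrix.SpecialLinearGroup (Fin 2) K) :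
    Matrix (Fin 2) (Fin 2) K) with hR
  set ps : V → (Fin 2 → K) := fun v => Multiplicative.toAdd (c.ψ v) with hps
  have ps_mul : ∀ v v' : V, ps (v * v') = ps v + ps v' := fun v v' => by
    rw [hps]
    simp only [map_mul, toAdd_mul]
  have ps_surj : ∀ u, ∃ v, ps v = u := fun u => by
    obtain ⟨v, hv⟩ := c.ψ_surj (Multiplicative.ofAdd u)
    exact ⟨v, by rw [hps]; simp only [hv, toAdd_ofAdd]⟩
  have ps_act : ∀ w ∈ W, ∀ v v' : V, (v' : Ω) = w * v * w⁻¹ → ps v' = (R w).mulVec (ps v) := by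
    intro w hw v v' hv'
    have h3 := c.ψ_eq (act w) v
    have h4 : ((act w : c.E) : MulAut V) v = v' := Subtype.ext (by rw [hact w hw, hv'])
    rw [h4] at h3
    exact h3
  have act_mul : ∀ w ∈ W, ∀ w' ∈ W, act (w * w') = act w * act w' := by
    intro w hw w' hw'
    apply Subtype.ext
    apply MulEquiv.ext
    intro v
    apply Subtype.ext
    rw [hact _ (W.mul_mem hw hw'), Subgroup.coe_mul, MulAut.mul_apply, hact _ hw, hact _ hw']
    group
  have R_mul : ∀ w ∈ W, ∀ w' ∈ W, R (w * w') = R w * R w' := by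
    intro w hw w' hw'
    simp only [hR]
    rw [act_mul w hw w' hw', map_mul, Matrix.SpecialLinearGroup.coe_mul]
  have act_one : ∀ w ∈ W, (w ∈ V ↔ act w = 1) := by
    intro w hw
    constructor
    · intro hwV
      apply Subtype.ext
      apply MulEquiv.ext
      intro v
      apply Subtype.ext
      rw [hact _ hw, commV c hwV v.2, mul_inv_cancel_right]
      rfl
    · intro h3
      apply cenV c (T_le c (W_le_T c hw))
      intro v hv
      have h4 := hact w hw ⟨v, hv⟩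
      rw [h3] at h4
      have h5 : v = w * v * w⁻¹ := h4
      nth_rewrite 2 [h5]
      group
  have R_one : ∀ w ∈ W, (w ∈ V ↔ R w = 1) := by
    intro w hw
    rw [act_one w hw]
    constructor
    · intro h3
      simp only [hR]
      rw [h3, map_one, Matrix.SpecialLinearGroup.coe_one]
    · intro h3
      have h4 : c.ρ (act w) = 1 := Subtype.ext h3
      exact (map_eq_one_iff c.ρ c.ρ.injective).1 h4
  have R_det : ∀ w, R w 0 0 * R w 1 1 - R w 0 1 * R w 1 0 = 1 := by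
    intro w
    have h3 := (c.ρ (act w)).2
    rw [Matrix.det_fin_two] at h3
    exact h3
  have R_comm : ∀ w ∈ W, ∀ w' ∈ W, R w * R w' = R w' * R w := by
    intro w hw w' hw'
    rw [← R_mul w hw w' hw', commW c hw hw', R_mul w' hw' w hw]
  have R_sq : ∀ w ∈ W, R w * R w = 1 := by
    intro w hw
    rw [← R_mul w hw w hw, elW c hw]
    exact (R_one 1 W.one_mem).1 V.one_mem
  -- an element of `W` outside `V`
  obtain ⟨w₀, hw₀, hw₀V⟩ : ∃ w ∈ W, w ∉ V := by
    by_contra hno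
    push Not at hno
    have h3 : V ⊓ W = W := inf_eq_right.2 hno
    have h4 := card_rel c
    rw [h3, hW, card_cj] at h4
    have h5 : 0 < Nat.card V := Nat.card_pos
    nlinarith
  set M := R w₀ with hM
  have hMM : M * M = 1 := R_sq w₀ hw₀
  -- a basis
  obtain ⟨e2, he2⟩ : ∃ u : Fin 2 → K, M.mulVec u ≠ u := by
    by_contra hno
    push Not at hno
    apply hw₀V
    rw [R_one w₀ hw₀]
    apply Matrix.ext_of_mulVec_single
    intro i
    rw [hno, Matrix.one_mulVec]
  obtain ⟨e1, he1⟩ : ∃ e1 : Fin 2 → K, e1 = M.mulVec e2 + e2 := ⟨_, rfl⟩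
  have vadd : ∀ u : Fin 2 → K, u + u = 0 := fun u => funext fun i => add_self (u i)
  have Me2 : M.mulVec e2 = e1 + e2 := by rw [he1, add_assoc, vadd, add_zero]
  have Me1 : M.mulVec e1 = e1 := by
    rw [he1, Matrix.mulVec_add, Matrix.mulVec_mulVec, hMM, Matrix.one_mulVec, add_comm]
  have e1_ne : e1 ≠ 0 := by
    intro h3
    apply he2
    rw [Me2, h3, zero_add]
  obtain ⟨f, hf⟩ : ∃ f : (Fin 2 → K) → K, ∀ u, f u = e1 0 * u 1 - e1 1 * u 0 := ⟨_, fun u => rfl⟩
  obtain ⟨g, hg⟩ : ∃ g : (Fin 2 → K) → K, ∀ u, g u = u 0 * e2 1 - u 1 * e2 0 := ⟨_, fun u => rfl⟩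
  obtain ⟨Δ, hΔ⟩ : ∃ Δ : K, Δ = e1 0 * e2 1 - e1 1 * e2 0 := ⟨_, rfl⟩
  have hΔ0 : Δ ≠ 0 := by
    intro h3
    have key : ∀ k : K, e2 = k • e1 → False := by
      intro k hk
      apply he2
      nth_rewrite 1 [hk]
      rw [Matrix.mulVec_smul, Me1, ← hk]
    by_cases h0 : e1 0 = 0
    · have h1 : e1 1 ≠ 0 := by
        intro h1
        apply e1_ne
        ext i
        fin_cases i
        · exact h0
        · exact h1
      apply key (e2 1 / e1 1)
      ext i
      fin_cases i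
      · show e2 0 = e2 1 / e1 1 * e1 0
        rw [h3, h0] at hΔ
        have h4 : e1 1 * e2 0 = 0 := by linear_combination hΔ
        rcases mul_eq_zero.1 h4 with h5 | h5
        · exact absurd h5 h1
        · rw [h5, h0, mul_zero]
      · show e2 1 = e2 1 / e1 1 * e1 1
        rw [div_mul_cancel₀ _ h1]
    · apply key (e2 0 / e1 0)
      ext i
      fin_cases i
      · show e2 0 = e2 0 / e1 0 * e1 0
        rw [div_mul_cancel₀ _ h0]
      · show e2 1 = e2 0 / e1 0 * e1 1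
        field_simp
        rw [h3] at hΔ
        linear_combination -hΔ
  have cramer : ∀ u : Fin 2 → K, u = (g u / Δ) • e1 + (f u / Δ) • e2 := by
    intro u
    ext i
    have h3 : Δ * u i = g u * e1 i + f u * e2 i := by
      rw [hg, hf, hΔ]
      fin_cases i
      · show (e1 0 * e2 1 - e1 1 * e2 0) * u 0 = (u 0 * e2 1 - u 1 * e2 0) * e1 0 + (e1 0 * u 1 - e1 1 * u 0) * e2 0
        ring
      · show (e1 0 * e2 1 - e1 1 * e2 0) * u 1 = (u 0 * e2 1 - u 1 * e2 0) * e1 1 + (e1 0 * u 1 - e1 1 * u 0) * e2 1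
        ring
    show u i = g u / Δ * e1 i + f u / Δ * e2 i
    field_simp
    linear_combination h3
  have f_add : ∀ u u', f (u + u') = f u + f u' := by
    intro u u'
    rw [hf, hf, hf, Pi.add_apply, Pi.add_apply]
    ring
  have g_add : ∀ u u', g (u + u') = g u + g u' := by
    intro u u'
    rw [hg, hg, hg, Pi.add_apply, Pi.add_apply]
    ring
  have f_smul : ∀ (k : K) u, f (k • u) = k * f u := by
    intro k u
    rw [hf, hf, Pi.smul_apply, Pi.smul_apply, smul_eq_mul, smul_eq_mul]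
    ring
  have g_smul : ∀ (k : K) u, g (k • u) = k * g u := by
    intro k u
    rw [hg, hg, Pi.smul_apply, Pi.smul_apply, smul_eq_mul, smul_eq_mul]
    ring
  have f1 : f e1 = 0 := by rw [hf]; ring
  have f2 : f e2 = Δ := by rw [hf, hΔ]
  have g1 : g e1 = Δ := by rw [hg, hΔ]
  have g2 : g e2 = 0 := by rw [hg]; ring
  -- the action of `W` in this basis
  have Re : ∀ w ∈ W, (R w).mulVec e1 = e1 ∧ (R w).mulVec e2 = (g ((R w).mulVec e2) / Δ) • e1 + e2 := by
    intro w hw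
    obtain ⟨b, hb⟩ : ∃ b, b = f ((R w).mulVec e2) / Δ := ⟨_, rfl⟩
    have h3 := cramer ((R w).mulVec e2)
    rw [← hb] at h3
    set l := g ((R w).mulVec e2) / Δ with hl
    have h4 : (R w).mulVec e1 = b • e1 := by
      have h5 : (R w).mulVec (M.mulVec e2) = M.mulVec ((R w).mulVec e2) := by
        rw [Matrix.mulVec_mulVec, Matrix.mulVec_mulVec, R_comm w hw w₀ hw₀]
      rw [he1, Matrix.mulVec_add, h5]
      nth_rewrite 1 [h3]
      rw [Matrix.mulVec_add, Matrix.mulVec_smul, Matrix.mulVec_smul, Me1, Me2]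
      rw [h3, ← Me2, ← he1]
      have : l • e1 + b • (e1 + e2) + (l • e1 + b • e2) = b • e1 + (l • e1 + l • e1) + (b • e2 + b • e2) := by
        rw [smul_add]; abel
      rw [Me2, this, vadd, vadd, add_zero, add_zero]
    have h5 : b * b = 1 := by
      have e10 := congrFun h4 0
      have e11 := congrFun h4 1
      have e20 := congrFun h3 0
      have e21 := congrFun h3 1
      have mv : ∀ (A : Matrix (Fin 2) (Fin 2) K) (u : Fin 2 → K) (i : Fin 2),
          A.mulVec u i = A i 0 * u 0 + A i 1 * u 1 := by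
        intro A u i
        simp [Matrix.mulVec, dotProduct, Fin.sum_univ_two]
      rw [mv] at e10 e11 e20 e21
      simp only [Pi.add_apply, Pi.smul_apply, smul_eq_mul] at e10 e11 e20 e21
      have hd := R_det w
      have h6 : b * b * Δ = 1 * Δ := by
        rw [hΔ]
        generalize R w 0 0 = r00 at *
        generalize R w 0 1 = r01 at *
        generalize R w 1 0 = r10 at *
        generalize R w 1 1 = r11 at *
        linear_combination (-(r10 * e2 0 + r11 * e2 1)) * e10 + (r00 * e2 0 + r01 * e2 1) * e11 +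
          (b * e1 1) * e20 - (b * e1 0) * e21 + (e1 0 * e2 1 - e1 1 * e2 0) * hd
      exact mul_right_cancel₀ hΔ0 h6
    have h6 : b = 1 := by
      have h7 : (b - 1) * (b - 1) = 0 := by linear_combination h5 - (b - 1) * h2
      have h8 := mul_self_eq_zero.1 h7
      linear_combination h8
    rw [h6, one_smul] at h3 h4
    exact ⟨h4, h3⟩
  -- the coordinates
  obtain ⟨lam, hlam⟩ : ∃ lam : Ω → K, ∀ w, lam w = g ((R w).mulVec e2) / Δ := ⟨_, fun w => rfl⟩
  obtain ⟨mu, hmu⟩ : ∃ mu : Ω → K, ∀ v (hv : v ∈ V), mu v = f (ps ⟨v, hv⟩) / Δ :=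
    ⟨fun v => if hv : v ∈ V then f (ps ⟨v, hv⟩) / Δ else 0, fun v hv => dif_pos hv⟩
  obtain ⟨zet, hzet⟩ : ∃ zet : Ω → K, ∀ v (hv : v ∈ V), zet v = g (ps ⟨v, hv⟩) / Δ :=
    ⟨fun v => if hv : v ∈ V then g (ps ⟨v, hv⟩) / Δ else 0, fun v hv => dif_pos hv⟩
  have Re2 : ∀ w ∈ W, (R w).mulVec e2 = lam w • e1 + e2 := fun w hw => by rw [hlam]; exact (Re w hw).2
  have Re1 : ∀ w ∈ W, (R w).mulVec e1 = e1 := fun w hw => (Re w hw).1
  have hpsv : ∀ v (hv : v ∈ V), ps ⟨v, hv⟩ = zet v • e1 + mu v • e2 := fun v hv => by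
    rw [hzet v hv, hmu v hv]; exact cramer _
  have Rps : ∀ w ∈ W, ∀ v (hv : v ∈ V), (R w).mulVec (ps ⟨v, hv⟩) = (zet v + mu v * lam w) • e1 + mu v • e2 := by
    intro w hw v hv
    rw [hpsv v hv, Matrix.mulVec_add, Matrix.mulVec_smul, Matrix.mulVec_smul, Re1 w hw, Re2 w hw, smul_add, smul_smul,
      add_smul]
    abel
  have coord : ∀ a b : K, f (a • e1 + b • e2) = b * Δ ∧ g (a • e1 + b • e2) = a * Δ := by
    intro a b
    rw [f_add, f_smul, f_smul, f1, f2, g_add, g_smul, g_smul, g1, g2]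
    constructor <;> ring
  have mu_mul : ∀ v ∈ V, ∀ v' ∈ V, mu (v * v') = mu v + mu v' := by
    intro v hv v' hv'
    have h3 : ps ⟨v * v', V.mul_mem hv hv'⟩ = ps ⟨v, hv⟩ + ps ⟨v', hv'⟩ := ps_mul ⟨v, hv⟩ ⟨v', hv'⟩
    rw [hmu _ (V.mul_mem hv hv'), h3, f_add, add_div, ← hmu, ← hmu]
  have zet_mul : ∀ v ∈ V, ∀ v' ∈ V, zet (v * v') = zet v + zet v' := by
    intro v hv v' hv'
    have h3 : ps ⟨v * v', V.mul_mem hv hv'⟩ = ps ⟨v, hv⟩ + ps ⟨v', hv'⟩ := ps_mul ⟨v, hv⟩ ⟨v', hv'⟩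
    rw [hzet _ (V.mul_mem hv hv'), h3, g_add, add_div, ← hzet, ← hzet]
  have inv_V : ∀ v ∈ V, v⁻¹ = v := fun v hv => inv_eq_of_mul_eq_one_left (elV c hv)
  have inv_W : ∀ v ∈ W, v⁻¹ = v := fun v hv => inv_eq_of_mul_eq_one_left (elW c hv)
  -- the basic formula
  have key : ∀ v ∈ V, ∀ w ∈ W, w * v * w⁻¹ ∈ V ∧ zet (w * v * w⁻¹) = zet v + mu v * lam w ∧ mu (w * v * w⁻¹) = mu v := by
    intro v hv w hw
    have h3 : w * v * w⁻¹ ∈ V := T_normV c (W_le_T c hw) hv
    have h4 := ps_act w hw ⟨v, hv⟩ ⟨_, h3⟩ rfl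
    rw [Rps w hw v hv] at h4
    refine ⟨h3, ?_, ?_⟩
    · rw [hzet _ h3, h4, (coord _ _).2, mul_div_assoc, div_self hΔ0, mul_one]
    · rw [hmu _ h3, h4, (coord _ _).1, mul_div_assoc, div_self hΔ0, mul_one]
  have commut : ∀ v ∈ V, ∀ w ∈ W, v * w * v⁻¹ * w⁻¹ ∈ V ∧ v * w * v⁻¹ * w⁻¹ ∈ W := by
    intro v hv w hw
    have e : v * w * v⁻¹ * w⁻¹ = v * (w * v⁻¹ * w⁻¹) := by group
    refine ⟨?_, W.mul_mem (T_normW c (V_le_T c hv) hw) (W.inv_mem hw)⟩
    rw [e]
    exact V.mul_mem hv (T_normV c (W_le_T c hw) (V.inv_mem hv))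
  -- lam
  have lam_mul : ∀ w ∈ W, ∀ w' ∈ W, lam (w * w') = lam w + lam w' := by
    intro w hw w' hw'
    rw [hlam (w * w'), R_mul w hw w' hw', ← Matrix.mulVec_mulVec, Re2 w' hw', Matrix.mulVec_add, Matrix.mulVec_smul,
      Re1 w hw, Re2 w hw]
    have : lam w' • e1 + (lam w • e1 + e2) = (lam w + lam w') • e1 + (1 : K) • e2 := by
      rw [add_smul, one_smul]; abel
    rw [this, (coord _ _).2, mul_div_assoc, div_self hΔ0, mul_one]
  have lam_zero : ∀ w ∈ W, (lam w = 0 ↔ w ∈ V) := by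
    intro w hw
    rw [R_one w hw]
    constructor
    · intro h3
      apply Matrix.ext_of_mulVec_single
      intro i
      rw [Matrix.one_mulVec, cramer (Pi.single i 1), Matrix.mulVec_add, Matrix.mulVec_smul, Matrix.mulVec_smul,
        Re1 w hw, Re2 w hw, h3, zero_smul, zero_add]
    · intro h3
      rw [hlam, h3, Matrix.one_mulVec, g2, zero_div]
  -- counting
  have hKc : Nat.card (Multiplicative K) = Fintype.card K := by
    rw [Nat.card_congr Multiplicative.toAdd, Nat.card_eq_fintype_card]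
  have hWc : Nat.card W = Nat.card V := card_cj x V
  have hcard := card_rel c
  have hfW : Finite W := finite_of_le ((W_le_T c).trans (T_le c))
  have mu_zero : ∀ v ∈ V, (mu v = 0 ↔ v ∈ W) := by
    let μ : V →* Multiplicative K :=
      { toFun := fun v => Multiplicative.ofAdd (mu v)
        map_one' := by
          have h3 := mu_mul 1 V.one_mem 1 V.one_mem
          rw [mul_one] at h3
          have h4 : mu 1 = 0 := by linear_combination -h3
          show Multiplicative.ofAdd (mu 1) = 1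
          rw [h4]; rfl
        map_mul' := fun v v' => by
          show Multiplicative.ofAdd (mu (v * v')) = _
          rw [mu_mul v v.2 v' v'.2]; rfl }
    have hμ : Function.Surjective μ := by
      intro k
      obtain ⟨v, hv⟩ := ps_surj (Multiplicative.toAdd k • e2)
      refine ⟨v, ?_⟩
      show Multiplicative.ofAdd (mu v) = k
      rw [hmu v v.2]
      have h3 : ps ⟨(v : Ω), v.2⟩ = (0 : K) • e1 + Multiplicative.toAdd k • e2 := by rw [zero_smul, zero_add]; exact hv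
      rw [h3, (coord _ _).1, mul_div_assoc, div_self hΔ0, mul_one]
      rfl
    have h3 : Nat.card μ.ker * Fintype.card K = Nat.card V := by
      have h4 := Subgroup.card_mul_index μ.ker
      rw [Subgroup.index_ker, MonoidHom.range_eq_top.2 hμ, Subgroup.card_top, hKc] at h4
      exact h4
    have hle : W.subgroupOf V ≤ μ.ker := by
      intro v hv
      have hv' : (v : Ω) ∈ W := hv
      show Multiplicative.ofAdd (mu v) = 1
      have h4 : w₀ * v * w₀⁻¹ = v := by rw [commW c hw₀ hv', mul_inv_cancel_right]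
      have h5 := ps_act w₀ hw₀ v v h4.symm
      have h6 := Rps w₀ hw₀ v v.2
      have h7 : ps v = (zet v + mu v * lam w₀) • e1 + mu v • e2 := h5.trans h6
      have h8 : ps v = zet v • e1 + mu v • e2 := hpsv v v.2
      have h9 := congrArg g (h7.symm.trans h8)
      rw [(coord _ _).2, (coord _ _).2] at h9
      have h10 := mul_right_cancel₀ hΔ0 h9
      have h11 : mu v * lam w₀ = 0 := by linear_combination h10
      have h12 : lam w₀ ≠ 0 := fun h => hw₀V ((lam_zero w₀ hw₀).1 h)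
      rw [(mul_eq_zero.1 h11).resolve_right h12]
      rfl
    have h4 : Nat.card ↥(W.subgroupOf V) = Nat.card ↥(V ⊓ W) := by
      have e : W.subgroupOf V = (V ⊓ W).subgroupOf V := by
        ext v
        rw [Subgroup.mem_subgroupOf, Subgroup.mem_subgroupOf, Subgroup.mem_inf]
        exact ⟨fun h => ⟨v.2, h⟩, fun h => h.2⟩
      rw [e]
      exact Nat.card_congr (Subgroup.subgroupOfEquivOfLe inf_le_left).toEquiv
    have h5 : W.subgroupOf V = μ.ker := by
      apply Subgroup.eq_of_le_of_card_ge hle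
      have h6 : Nat.card μ.ker * Fintype.card K = Nat.card ↥(V ⊓ W) * Fintype.card K := by
        rw [h3, ← hcard, mul_comm]
      rw [h4]
      exact (Nat.eq_of_mul_eq_mul_right (by omega) h6).le
    intro v hv
    have h6 : (⟨v, hv⟩ : V) ∈ W.subgroupOf V ↔ (⟨v, hv⟩ : V) ∈ μ.ker := by rw [h5]
    rw [Subgroup.mem_subgroupOf, MonoidHom.mem_ker] at h6
    constructor
    · intro h7
      apply h6.2
      show Multiplicative.ofAdd (mu v) = 1
      rw [h7]; rfl
    · intro h7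
      have h8 : Multiplicative.ofAdd (mu v) = 1 := h6.1 h7
      exact ofAdd_eq_one.1 h8
  have lam_surj : ∀ k, ∃ w ∈ W, lam w = k := by
    let μ : W →* Multiplicative K :=
      { toFun := fun v => Multiplicative.ofAdd (lam v)
        map_one' := by
          have h3 := lam_mul 1 W.one_mem 1 W.one_mem
          rw [mul_one] at h3
          have h4 : lam 1 = 0 := by linear_combination -h3
          show Multiplicative.ofAdd (lam 1) = 1
          rw [h4]; rfl
        map_mul' := fun v v' => by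
          show Multiplicative.ofAdd (lam (v * v')) = _
          rw [lam_mul v v.2 v' v'.2]; rfl }
    have h3 : μ.ker = V.subgroupOf W := by
      ext v
      rw [Subgroup.mem_subgroupOf, MonoidHom.mem_ker, ← lam_zero v v.2]
      exact ofAdd_eq_one
    have h4 : Nat.card μ.ker = Nat.card ↥(V ⊓ W) := by
      have e : V.subgroupOf W = (V ⊓ W).subgroupOf W := by
        ext v
        rw [Subgroup.mem_subgroupOf, Subgroup.mem_subgroupOf, Subgroup.mem_inf]
        exact ⟨fun h => ⟨h, v.2⟩, fun h => h.1⟩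
      rw [h3, e]
      exact Nat.card_congr (Subgroup.subgroupOfEquivOfLe inf_le_right).toEquiv
    have h5 := Subgroup.card_mul_index μ.ker
    rw [Subgroup.index_ker, h4, hWc, ← hcard, mul_comm] at h5
    have hpos : 0 < Nat.card ↥(V ⊓ cj x V) := by
      have : Finite ↥(V ⊓ cj x V) := finite_of_le (inf_le_left.trans c.V_le)
      exact Nat.card_pos
    have h6 := Nat.eq_of_mul_eq_mul_right hpos h5
    have h7 : μ.range = ⊤ := by
      apply Subgroup.eq_top_of_card_eq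
      rw [h6, hKc]
    intro k
    obtain ⟨w, hw⟩ : Multiplicative.ofAdd k ∈ μ.range := by rw [h7]; exact Subgroup.mem_top _
    exact ⟨w, w.2, Multiplicative.ofAdd.injective hw⟩
  have ps_fix : ∀ v (hv : v ∈ V), ps ⟨v, hv⟩ = 0 ↔ v ∈ fixS V c.E := by
    intro v hv
    rw [← c.ψ_ker ⟨v, hv⟩]
    exact toAdd_eq_zero
  have hpsz : ∀ v (hv : v ∈ V), v ∈ W → (ps ⟨v, hv⟩ = 0 ↔ zet v = 0) := by
    intro v hv hvW
    rw [hpsv v hv, (mu_zero v hv).2 hvW, zero_smul, add_zero]
    constructor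
    · intro h3
      exact (smul_eq_zero.1 h3).resolve_right e1_ne
    · intro h3
      rw [h3, zero_smul]
  refine ⟨mu, lam, zet, ⟨h2, fun v hv => elV c hv, fun w hw => elW c hw, fun v hv w hw => commut v hv w hw, mu_mul,
    mu_zero, ?_, lam_mul, lam_zero, lam_surj, fun z hz z' hz' => zet_mul z hz.1 z' hz'.1, ?_, ?_, ?_, ?_⟩⟩
  · intro k
    obtain ⟨v, hv⟩ := ps_surj (k • e2)
    refine ⟨v, v.2, ?_⟩
    rw [hmu v v.2]
    have h3 : ps ⟨(v : Ω), v.2⟩ = (0 : K) • e1 + k • e2 := by rw [zero_smul, zero_add]; exact hv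
    rw [h3, (coord _ _).1, mul_div_assoc, div_self hΔ0, mul_one]
  · intro z hz
    rw [← ps_fix z hz.1, hpsz z hz.1 hz.2]
  · intro k
    obtain ⟨v, hv⟩ := ps_surj (k • e1)
    have h3 : ps ⟨(v : Ω), v.2⟩ = k • e1 + (0 : K) • e2 := by rw [zero_smul, add_zero]; exact hv
    have h4 : mu v = 0 := by rw [hmu v v.2, h3, (coord _ _).1, zero_mul, zero_div]
    refine ⟨v, ⟨v.2, (mu_zero v v.2).1 h4⟩, ?_⟩
    rw [hzet v v.2, h3, (coord _ _).2, mul_div_assoc, div_self hΔ0, mul_one]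
  · intro v hv w hw
    have e : v * w * v⁻¹ * w⁻¹ = v * (w * v * w⁻¹) := by rw [inv_V v hv]; group
    obtain ⟨h3, h4, -⟩ := key v hv w hw
    rw [e, zet_mul v hv _ h3, h4]
    linear_combination add_self (zet v)
  · intro d hd
    obtain ⟨v, hv, rfl⟩ := id hd
    have h3 : ps v = 0 := (ps_fix v v.2).2 hd
    refine ⟨v.2, (mu_zero v v.2).1 ?_⟩
    show mu v = 0
    rw [hmu v v.2]
    have h4 : ps ⟨(v : Ω), v.2⟩ = 0 := h3
    rw [h4, hf, Pi.zero_apply, Pi.zero_apply, mul_zero, mul_zero, sub_zero, zero_div]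

end Conf

end Cfsg.Agent.H456.HM
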