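import Cfsg.Agent.H456.HM.Coord

/-!
# S5175: the calculus in `T = V V^x` (helper456)
-/

set_option autoImplicit false

namespace Cfsg.Agent.H456.HM

open Cfsg Cfsg.FusionSystem Cfsg.Agent.H756.HM Cfsg.Agent.H802

variable {Ω : Type*} [Group Ω] {K : Type} [Field K] {V W D : Subgroup Ω} {mu lam zet : Ω → K}

namespace Crd

variable (h : Crd K V W D mu lam zet)

include h

theorem add_self (a : K) : a + a = 0 := by rw [← two_mul, h.two, zero_mul]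

theorem neg_eq (a : K) : -a = a := neg_eq_of_add_eq_zero_left (h.add_self a)

theorem eq_of_add {a b : K} (hab : a + b = 0) : a = b := by
  rw [← h.neg_eq b]
  exact eq_neg_of_add_eq_zero_left hab

theorem invV {v : Ω} (hv : v ∈ V) : v⁻¹ = v := inv_eq_of_mul_eq_one_left (h.elV v hv)

theorem invW {v : Ω} (hv : v ∈ W) : v⁻¹ = v := inv_eq_of_mul_eq_one_left (h.elW v hv)

theorem commV {v w : Ω} (hv : v ∈ V) (hw : w ∈ V) : v * w = w * v :=
  comm_of_sq (h.elV v hv) (h.elV w hw) (h.elV _ (V.mul_mem hv hw))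

theorem commW {v w : Ω} (hv : v ∈ W) (hw : w ∈ W) : v * w = w * v :=
  comm_of_sq (h.elW v hv) (h.elW w hw) (h.elW _ (W.mul_mem hv hw))

/-- the swapped coordinates (without the third) -/
theorem conjV {v w : Ω} (hv : v ∈ V) (hw : w ∈ W) : w * v * w⁻¹ ∈ V := by
  have h1 := (h.com v hv w hw).1
  have h2 : w * v * w⁻¹ = (v * w * v⁻¹ * w⁻¹)⁻¹ * v := by group
  rw [h2]
  exact V.mul_mem (V.inv_mem h1) hv

theorem conjW {v w : Ω} (hv : v ∈ V) (hw : w ∈ W) : v * w * v⁻¹ ∈ W := by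
  have h1 := (h.com v hv w hw).2
  have h2 : v * w * v⁻¹ = (v * w * v⁻¹ * w⁻¹) * w := by group
  rw [h2]
  exact W.mul_mem h1 hw

/-- the elements of `T` -/
theorem mem_sup {t : Ω} : t ∈ V ⊔ W ↔ ∃ v ∈ V, ∃ w ∈ W, t = v * w := by
  constructor
  · intro ht
    let H : Subgroup Ω :=
      { carrier := {t | ∃ v ∈ V, ∃ w ∈ W, t = v * w}
        one_mem' := ⟨1, V.one_mem, 1, W.one_mem, by rw [mul_one]⟩
        mul_mem' := by
          rintro _ _ ⟨v, hv, w, hw, rfl⟩ ⟨v', hv', w', hw', rfl⟩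
          exact ⟨v * (w * v' * w⁻¹), V.mul_mem hv (h.conjV hv' hw), w * w', W.mul_mem hw hw', by group⟩
        inv_mem' := by
          rintro _ ⟨v, hv, w, hw, rfl⟩
          refine ⟨w⁻¹ * v⁻¹ * w⁻¹⁻¹, h.conjV (V.inv_mem hv) (W.inv_mem hw), w⁻¹, W.inv_mem hw, by group⟩ }
    have hV : V ≤ H := fun v hv => ⟨v, hv, 1, W.one_mem, by rw [mul_one]⟩
    have hW : W ≤ H := fun w hw => ⟨1, V.one_mem, w, hw, by rw [one_mul]⟩
    exact sup_le hV hW ht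
  · rintro ⟨v, hv, w, hw, rfl⟩
    exact (V ⊔ W).mul_mem ((le_sup_left : V ≤ V ⊔ W) hv) ((le_sup_right : W ≤ V ⊔ W) hw)

/-- `Z ≤ Z(T)` -/
theorem cenZ {z t : Ω} (hz : z ∈ V ⊓ W) (ht : t ∈ V ⊔ W) : t * z = z * t := by
  obtain ⟨v, hv, w, hw, rfl⟩ := h.mem_sup.1 ht
  rw [mul_assoc, h.commW hw hz.2, ← mul_assoc, h.commV hv hz.1, mul_assoc]

theorem normV {t v : Ω} (ht : t ∈ V ⊔ W) (hv : v ∈ V) : t * v * t⁻¹ ∈ V := by
  obtain ⟨u, hu, w, hw, rfl⟩ := h.mem_sup.1 ht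
  have : u * w * v * (u * w)⁻¹ = u * (w * v * w⁻¹) * u⁻¹ := by group
  rw [this]
  exact V.mul_mem (V.mul_mem hu (h.conjV hv hw)) (V.inv_mem hu)

theorem normW {t w : Ω} (ht : t ∈ V ⊔ W) (hw : w ∈ W) : t * w * t⁻¹ ∈ W := by
  obtain ⟨u, hu, w', hw', rfl⟩ := h.mem_sup.1 ht
  have : u * w' * w * (u * w')⁻¹ = u * (w' * w * w'⁻¹) * u⁻¹ := by group
  rw [this]
  exact h.conjW hu (W.mul_mem (W.mul_mem hw' hw) (W.inv_mem hw'))

/-- commuting elements of `V` and `W` -/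
theorem comm_one {v w : Ω} (hv : v ∈ V) (hw : w ∈ W) (hc : v * w = w * v) : v ∈ W ∨ w ∈ V := by
  have h1 := h.zet_com v hv w hw
  have h2 : v * w * v⁻¹ * w⁻¹ = 1 := by rw [hc]; group
  have h3 : zet 1 = 0 := by
    have h4 := h.zet_mul 1 (V ⊓ W).one_mem 1 (V ⊓ W).one_mem
    rw [mul_one] at h4
    linear_combination -h4
  rw [h2, h3] at h1
  rcases mul_eq_zero.1 h1.symm with h5 | h5
  · exact Or.inl ((h.mu_zero v hv).1 h5)
  · exact Or.inr ((h.lam_zero w hw).1 h5)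

theorem sq_eq {v w : Ω} (hv : v ∈ V) (hw : w ∈ W) : v * w * (v * w) = v * w * v⁻¹ * w⁻¹ := by
  rw [h.invV hv, h.invW hw]
  group

/-- squares are in `Z` -/
theorem sq_mem {t : Ω} (ht : t ∈ V ⊔ W) : t * t ∈ V ⊓ W := by
  obtain ⟨v, hv, w, hw, rfl⟩ := h.mem_sup.1 ht
  rw [h.sq_eq hv hw]
  exact h.com v hv w hw

/-- the involutions of `T` -/
theorem inv_mem {t : Ω} (ht : t ∈ V ⊔ W) (h1 : t * t = 1) : t ∈ V ∨ t ∈ W := by
  obtain ⟨v, hv, w, hw, rfl⟩ := h.mem_sup.1 ht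
  rw [h.sq_eq hv hw] at h1
  have h2 : v * w = w * v := by
    have : v * w = (v * w * v⁻¹ * w⁻¹) * (w * v) := by group
    rw [this, h1, one_mul]
  rcases h.comm_one hv hw h2 with h3 | h3
  · exact Or.inr (W.mul_mem h3 hw)
  · exact Or.inl (V.mul_mem hv h3)

/-- commutators are in `Z` -/
theorem comm_mem {t s : Ω} (ht : t ∈ V ⊔ W) (hs : s ∈ V ⊔ W) : t * s * t⁻¹ * s⁻¹ ∈ V ⊓ W := by
  have h1 := h.sq_mem ht
  have h2 := h.sq_mem hs
  have h3 := h.sq_mem ((V ⊔ W).mul_mem ht hs)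
  -- `[t, s] = (ts)² ... `
  have e : t * s * t⁻¹ * s⁻¹ = (t * s * (t * s)) * (s⁻¹ * (t * t)⁻¹ * s) * (s * s)⁻¹ := by group
  rw [e]
  refine (V ⊓ W).mul_mem ((V ⊓ W).mul_mem h3 ?_) ((V ⊓ W).inv_mem h2)
  have h4 := h.cenZ ((V ⊓ W).inv_mem h1) ((V ⊔ W).inv_mem hs)
  rw [h4, inv_mul_cancel_right]
  exact (V ⊓ W).inv_mem h1

/-- subgroups of exponent 2 -/
theorem el_le {H : Subgroup Ω} (hH : H ≤ V ⊔ W) (h1 : ∀ a ∈ H, a * a = 1) : H ≤ V ∨ H ≤ W := by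
  by_contra hno
  rw [not_or] at hno
  obtain ⟨a, ha, haV⟩ := SetLike.not_le_iff_exists.1 hno.1
  obtain ⟨b, hb, hbW⟩ := SetLike.not_le_iff_exists.1 hno.2
  have ha' := (h.inv_mem (hH ha) (h1 a ha)).resolve_left haV
  have hb' := (h.inv_mem (hH hb) (h1 b hb)).resolve_right hbW
  have h2 : b * a = a * b := comm_of_sq (h1 b hb) (h1 a ha) (h1 _ (H.mul_mem hb ha))
  rcases h.comm_one hb' ha' h2 with h3 | h3
  · exact hbW h3
  · exact haV h3

theorem cent_V {t v : Ω} (ht : t ∈ V ⊔ W) (hv : v ∈ V) (hvW : v ∉ W) (hc : t * v = v * t) : t ∈ V := by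
  obtain ⟨u, hu, w, hw, rfl⟩ := h.mem_sup.1 ht
  have h1 : v * w = w * v := by
    have h2 : u * (w * v) = u * (v * w) := by
      rw [← mul_assoc, hc, ← mul_assoc, ← mul_assoc, h.commV hv hu]
    exact (mul_left_cancel h2).symm
  exact V.mul_mem hu ((h.comm_one hv hw h1).resolve_left hvW)

theorem cent_W {t w : Ω} (ht : t ∈ V ⊔ W) (hw : w ∈ W) (hwV : w ∉ V) (hc : t * w = w * t) : t ∈ W := by
  obtain ⟨u, hu, w', hw', rfl⟩ := h.mem_sup.1 ht
  have h1 : u * w = w * u := by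
    have h2 : u * w * w' = w * u * w' := by
      rw [mul_assoc, h.commW hw hw', ← mul_assoc, hc, mul_assoc]
    exact mul_right_cancel h2
  exact W.mul_mem ((h.comm_one hu hw h1).resolve_right hwV) hw'

/-- the index of `Z` -/
theorem card_V [Fintype K] [Finite V] : Fintype.card K * Nat.card ↥(V ⊓ W) = Nat.card V := by
  let μ : V →* Multiplicative K :=
    { toFun := fun v => Multiplicative.ofAdd (mu v)
      map_one' := by
        have h3 := h.mu_mul 1 V.one_mem 1 V.one_mem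
        rw [mul_one] at h3
        have h4 : mu 1 = 0 := by linear_combination -h3
        show Multiplicative.ofAdd (mu 1) = 1
        rw [h4]; rfl
      map_mul' := fun v v' => by
        show Multiplicative.ofAdd (mu (v * v')) = _
        rw [h.mu_mul v v.2 v' v'.2]; rfl }
  have hμ : Function.Surjective μ := by
    intro k
    obtain ⟨v, hv, hv'⟩ := h.mu_surj (Multiplicative.toAdd k)
    exact ⟨⟨v, hv⟩, congrArg Multiplicative.ofAdd hv'⟩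
  have h4 := Subgroup.card_mul_index μ.ker
  rw [Subgroup.index_ker, MonoidHom.range_eq_top.2 hμ, Subgroup.card_top, Nat.card_congr Multiplicative.toAdd,
    Nat.card_eq_fintype_card (α := K)] at h4
  have h5 : μ.ker = (V ⊓ W).subgroupOf V := by
    ext v
    rw [MonoidHom.mem_ker, Subgroup.mem_subgroupOf, Subgroup.mem_inf]
    constructor
    · intro h6
      exact ⟨v.2, (h.mu_zero v v.2).1 (ofAdd_eq_one.1 h6)⟩
    · intro h6
      exact ofAdd_eq_one.2 ((h.mu_zero v v.2).2 h6.2)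
  rw [h5, Nat.card_congr (Subgroup.subgroupOfEquivOfLe (inf_le_left : V ⊓ W ≤ V)).toEquiv, mul_comm] at h4
  exact h4

theorem zet_one' : zet 1 = 0 := by
  have h4 := h.zet_mul 1 (V ⊓ W).one_mem 1 (V ⊓ W).one_mem
  rw [mul_one] at h4
  linear_combination -h4

open Classical in
/-- the first coordinate on `T` -/
noncomputable def mh (_ : Crd K V W D mu lam zet) (t : Ω) : K :=
  if h : ∃ v, v ∈ V ∧ ∃ w ∈ W, t = v * w then mu h.choose else 0

open Classical in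
/-- the second coordinate on `T` -/
noncomputable def lh (_ : Crd K V W D mu lam zet) (t : Ω) : K :=
  if h : ∃ w, w ∈ W ∧ ∃ v ∈ V, t = v * w then lam h.choose else 0

theorem mu_eq {v v' : Ω} (hv : v ∈ V) (hv' : v' ∈ V) (hw : v⁻¹ * v' ∈ W) : mu v' = mu v := by
  have h1 := h.mu_mul v hv (v⁻¹ * v') (V.mul_mem (V.inv_mem hv) hv')
  rw [mul_inv_cancel_left, (h.mu_zero _ (V.mul_mem (V.inv_mem hv) hv')).2 hw, add_zero] at h1
  exact h1

theorem lam_eq {v v' : Ω} (hv : v ∈ W) (hv' : v' ∈ W) (hw : v⁻¹ * v' ∈ V) : lam v' = lam v := by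
  have h1 := h.lam_mul v hv (v⁻¹ * v') (W.mul_mem (W.inv_mem hv) hv')
  rw [mul_inv_cancel_left, (h.lam_zero _ (W.mul_mem (W.inv_mem hv) hv')).2 hw, add_zero] at h1
  exact h1

theorem mh_eq {v w : Ω} (hv : v ∈ V) (hw : w ∈ W) : h.mh (v * w) = mu v := by
  have h1 : ∃ v', v' ∈ V ∧ ∃ w' ∈ W, v * w = v' * w' := ⟨v, hv, w, hw, rfl⟩
  unfold mh
  rw [dif_pos h1]
  obtain ⟨h2, w', hw', h3⟩ := h1.choose_spec
  apply h.mu_eq hv h2
  have : v⁻¹ * h1.choose = w * w'⁻¹ := by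
    rw [eq_mul_inv_iff_mul_eq, mul_assoc, ← h3]
    group
  rw [this]
  exact W.mul_mem hw (W.inv_mem hw')

theorem lh_eq {v w : Ω} (hv : v ∈ V) (hw : w ∈ W) : h.lh (v * w) = lam w := by
  have h1 : ∃ w', w' ∈ W ∧ ∃ v' ∈ V, v * w = v' * w' := ⟨w, hw, v, hv, rfl⟩
  unfold lh
  rw [dif_pos h1]
  obtain ⟨h2, v', hv', h3⟩ := h1.choose_spec
  apply h.lam_eq hw h2
  have e : h1.choose = v'⁻¹ * (v * w) := (inv_mul_eq_of_eq_mul h3).symm
  have e2 : w⁻¹ * h1.choose = w⁻¹ * (v'⁻¹ * v) * w := by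
    generalize h1.choose = c at e
    rw [e]
    group
  rw [e2]
  have := h.conjV (V.mul_mem (V.inv_mem hv') hv) (W.inv_mem hw)
  rwa [inv_inv] at this

theorem mh_V {v : Ω} (hv : v ∈ V) : h.mh v = mu v := by
  have := h.mh_eq hv W.one_mem
  rwa [mul_one] at this

theorem mh_W {w : Ω} (hw : w ∈ W) : h.mh w = 0 := by
  have := h.mh_eq V.one_mem hw
  rwa [one_mul, (h.mu_zero 1 V.one_mem).2 W.one_mem] at this

theorem lh_W {w : Ω} (hw : w ∈ W) : h.lh w = lam w := by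
  have := h.lh_eq V.one_mem hw
  rwa [one_mul] at this

theorem lh_V {v : Ω} (hv : v ∈ V) : h.lh v = 0 := by
  have := h.lh_eq hv W.one_mem
  rwa [mul_one, (h.lam_zero 1 W.one_mem).2 V.one_mem] at this

theorem mh_mul {s t : Ω} (hs : s ∈ V ⊔ W) (ht : t ∈ V ⊔ W) : h.mh (s * t) = h.mh s + h.mh t := by
  obtain ⟨v, hv, w, hw, rfl⟩ := h.mem_sup.1 hs
  obtain ⟨v', hv', w', hw', rfl⟩ := h.mem_sup.1 ht
  have h1 := h.conjV hv' hw
  have e : v * w * (v' * w') = (v * (w * v' * w⁻¹)) * (w * w') := by group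
  rw [e, h.mh_eq (V.mul_mem hv h1) (W.mul_mem hw hw'), h.mh_eq hv hw, h.mh_eq hv' hw', h.mu_mul _ hv _ h1]
  congr 1
  apply h.mu_eq hv' h1
  have e2 : v'⁻¹ * (w * v' * w⁻¹) = v'⁻¹ * w * v'⁻¹⁻¹ * w⁻¹ := by group
  rw [e2]
  exact (h.com _ (V.inv_mem hv') _ hw).2

theorem lh_mul {s t : Ω} (hs : s ∈ V ⊔ W) (ht : t ∈ V ⊔ W) : h.lh (s * t) = h.lh s + h.lh t := by
  obtain ⟨v, hv, w, hw, rfl⟩ := h.mem_sup.1 hs
  obtain ⟨v', hv', w', hw', rfl⟩ := h.mem_sup.1 ht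
  have h1 := h.conjV hv' hw
  have e : v * w * (v' * w') = (v * (w * v' * w⁻¹)) * (w * w') := by group
  rw [e, h.lh_eq (V.mul_mem hv h1) (W.mul_mem hw hw'), h.lh_eq hv hw, h.lh_eq hv' hw', h.lam_mul _ hw _ hw']

theorem mh_one : h.mh 1 = 0 := h.mh_W W.one_mem

theorem lh_one : h.lh 1 = 0 := h.lh_V V.one_mem

theorem mh_inv {s : Ω} (hs : s ∈ V ⊔ W) : h.mh s⁻¹ = h.mh s := by
  have h1 := h.mh_mul hs ((V ⊔ W).inv_mem hs)
  rw [mul_inv_cancel, h.mh_one] at h1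
  exact (h.eq_of_add h1.symm).symm

theorem lh_inv {s : Ω} (hs : s ∈ V ⊔ W) : h.lh s⁻¹ = h.lh s := by
  have h1 := h.lh_mul hs ((V ⊔ W).inv_mem hs)
  rw [mul_inv_cancel, h.lh_one] at h1
  exact (h.eq_of_add h1.symm).symm

/-- `Z` is the kernel -/
theorem mem_Z_iff {t : Ω} (ht : t ∈ V ⊔ W) : t ∈ V ⊓ W ↔ h.mh t = 0 ∧ h.lh t = 0 := by
  constructor
  · intro hz
    exact ⟨h.mh_W hz.2, h.lh_V hz.1⟩
  · rintro ⟨h1, h2⟩
    obtain ⟨v, hv, w, hw, rfl⟩ := h.mem_sup.1 ht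
    rw [h.mh_eq hv hw, h.mu_zero v hv] at h1
    rw [h.lh_eq hv hw, h.lam_zero w hw] at h2
    exact ⟨V.mul_mem hv h2, W.mul_mem h1 hw⟩

end Crd

end Cfsg.Agent.H456.HM
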