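import Cfsg.Agent.H456.HM.Calc
import Cfsg.Agent.H802.FusCentric

/-!
# S5175, T11: `|S : T| = 2` (helper456)
-/

set_option autoImplicit false

namespace Cfsg.Agent.H456.HM

open Cfsg Cfsg.FusionSystem Cfsg.Agent.H756.HM Cfsg.Agent.H802

universe u

section

variable {Ω : Type*} [Group Ω] {S : Subgroup Ω} {F : FusionSystem S} {K : Type} [Field K] [Fintype K]
  {V T : Subgroup Ω} {x : Ω}

theorem cj_mul (a b : Ω) (H : Subgroup Ω) : cj (a * b) H = cj a (cj b H) := by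
  ext g
  rw [mem_cj, mem_cj, mem_cj]
  have : (a * b)⁻¹ * g * (a * b) = b⁻¹ * (a⁻¹ * g * a) * b := by group
  rw [this]

theorem cj_el (c : Conf F K V T x) (g : Ω) {a : Ω} (ha : a ∈ cj g V) : a * a = 1 := by
  obtain ⟨v, hv, rfl⟩ := ha
  rw [← map_mul, elV c hv, map_one]

theorem cj_le_S {g : Ω} (hg : g ∈ S) {H : Subgroup Ω} (hH : H ≤ S) : cj g H ≤ S := by
  rintro _ ⟨v, hv, rfl⟩
  exact S.mul_mem (S.mul_mem hg (hH hv)) (S.inv_mem hg)

theorem cj_x_W [Finite S] (c : Conf F K V T x) : cj x (cj x V) = V := by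
  have hle : cj x (cj x V) ≤ V := by
    rintro _ ⟨w, hw, rfl⟩
    exact xW c hw
  have hfV : Finite V := finite_of_le c.V_le
  exact Subgroup.eq_of_le_of_card_ge hle (by rw [card_cj, card_cj])

/-- an elementary subgroup of `T` of order `|V|` -/
theorem cj_eq [Finite S] (c : Conf F K V T x) (hT : T = V ⊔ cj x V) {g : Ω} (hg : cj g V ≤ T) :
    cj g V = V ∨ cj g V = cj x V := by
  obtain ⟨mu, lam, zet, h⟩ := exists_crd c
  have hfV : Finite V := finite_of_le c.V_le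
  have hfW : Finite (cj x V) := finite_of_le ((W_le_T c).trans (T_le c))
  rw [hT] at hg
  rcases h.el_le hg (fun a ha => cj_el c g ha) with h1 | h1
  · exact Or.inl (Subgroup.eq_of_le_of_card_ge h1 (by rw [card_cj]))
  · exact Or.inr (Subgroup.eq_of_le_of_card_ge h1 (by rw [card_cj, card_cj]))

theorem mem_T_of_cj (c : Conf F K V T x) {g : Ω} (hg : g ∈ S) (h : cj g V = V) : g ∈ T := by
  rw [← c.nor]
  refine ⟨hg, Subgroup.mem_normalizer_iff.2 fun v => ?_⟩
  constructor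
  · intro hv
    rw [← h]
    exact conj_mem_cj hv
  · intro hv
    rw [← h, mem_cj] at hv
    have : g⁻¹ * (g * v * g⁻¹) * g = v := by group
    rwa [this] at hv

/-- `N_S(T) = T ∪ xT` -/
theorem norm_T [Finite S] (c : Conf F K V T x) (hT : T = V ⊔ cj x V) {g : Ω} (hg : g ∈ S) (h : cj g V ≤ T) :
    g ∈ T ∨ x⁻¹ * g ∈ T := by
  rcases cj_eq c hT h with h1 | h1
  · exact Or.inl (mem_T_of_cj c hg h1)
  · right
    apply mem_T_of_cj c (S.mul_mem (S.inv_mem c.x_mem) hg)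
    rw [cj_mul, h1, ← cj_mul, inv_mul_cancel]
    ext v
    rw [mem_cj]
    simp

/-- an elementary abelian subgroup `g V g⁻¹` of `N_S(T)` lies in `T` -/
theorem cj_le [Finite S] (c : Conf F K V T x) (hq : 4 ≤ Fintype.card K) (hT : T = V ⊔ cj x V) {g : Ω} (hg : g ∈ S)
    (h : ∀ a ∈ cj g V, a ∈ T ∨ x⁻¹ * a ∈ T) : cj g V ≤ T := by
  obtain ⟨mu, lam, zet, hc⟩ := exists_crd c
  by_contra hno
  obtain ⟨b, hb, hbT⟩ := SetLike.not_le_iff_exists.1 hno
  set B := cj g V with hB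
  have hfB : Finite B := finite_of_le (cj_le_S hg c.V_le)
  have hfV : Finite V := finite_of_le c.V_le
  have el : ∀ a ∈ B, a * a = 1 := fun a ha => cj_el c g ha
  have cm : ∀ a ∈ B, ∀ a' ∈ B, a * a' = a' * a := fun a ha a' ha' => comm_of_sq (el a ha) (el a' ha')
    (el _ (B.mul_mem ha ha'))
  have hbx : x⁻¹ * b ∈ T := (h b hb).resolve_left hbT
  have hbt : b = x * (x⁻¹ * b) := by group
  -- `b` swaps `V` and `V^x`
  have sw : ∀ v ∈ V, b * v * b⁻¹ ∈ cj x V := by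
    intro v hv
    have h1 := T_normV c hbx hv
    have h2 := conj_mem_cj (y := x) h1
    have e : x * (x⁻¹ * b * v * (x⁻¹ * b)⁻¹) * x⁻¹ = b * v * b⁻¹ := by group
    rwa [e] at h2
  have sw' : ∀ w ∈ cj x V, b * w * b⁻¹ ∈ V := by
    intro w hw
    have h1 := xW c (T_normW c hbx hw)
    have e : x * (x⁻¹ * b * w * (x⁻¹ * b)⁻¹) * x⁻¹ = b * w * b⁻¹ := by group
    rwa [e] at h1
  -- `B ∩ T ≤ Z`
  have hBT : B ⊓ T ≤ V ⊓ cj x V := by
    intro a ha
    have h1 : a ∈ V ∨ a ∈ cj x V := hc.inv_mem (hT ▸ ha.2) (el a ha.1)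
    have h2 : b * a * b⁻¹ = a := by rw [cm b hb a ha.1, mul_inv_cancel_right]
    rcases h1 with h1 | h1
    · exact ⟨h1, by rw [← h2]; exact sw a h1⟩
    · exact ⟨by rw [← h2]; exact sw' a h1, h1⟩
  -- `|B : B ∩ T| ≤ 2`
  have hidx : (T.subgroupOf B).index = 2 := by
    rw [Subgroup.index_eq_two_iff]
    refine ⟨⟨b, hb⟩, fun a => ?_⟩
    have h1 : (a : Ω) ∈ T → (a : Ω) * b ∉ T := by
      intro h2 h3
      apply hbT
      have : b = (a : Ω)⁻¹ * (a * b) := by group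
      rw [this]
      exact T.mul_mem (T.inv_mem h2) h3
    have h2 : (a : Ω) ∉ T → (a : Ω) * b ∈ T := by
      intro h3
      have h4 := (h a a.2).resolve_left h3
      have e : (a : Ω) * b = (x ^ 2) * ((x⁻¹ * (x⁻¹ * a) * x) * (x⁻¹ * b)) := by rw [pow_two]; group
      rw [e]
      exact T.mul_mem c.x_sq (T.mul_mem (x_T' c h4) hbx)
    by_cases h3 : (a : Ω) ∈ T
    · exact Or.inr ⟨h3, h1 h3⟩
    · exact Or.inl ⟨h2 h3, h3⟩
  have h1 := Subgroup.card_mul_index (T.subgroupOf B)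
  have e : T.subgroupOf B = (B ⊓ T).subgroupOf B := by
    ext v
    rw [Subgroup.mem_subgroupOf, Subgroup.mem_subgroupOf, Subgroup.mem_inf]
    exact ⟨fun h => ⟨v.2, h⟩, fun h => h.2⟩
  rw [hidx, e, Nat.card_congr (Subgroup.subgroupOfEquivOfLe (inf_le_left : B ⊓ T ≤ B)).toEquiv, hB, card_cj, ← hB] at h1
  have hfZ : Finite ↥(V ⊓ cj x V) := finite_of_le (inf_le_left.trans c.V_le)
  have h2 : Nat.card ↥(B ⊓ T) ≤ Nat.card ↥(V ⊓ cj x V) := Subgroup.card_le_of_le hBT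
  have h3 := card_rel c
  have h4 : 0 < Nat.card ↥(V ⊓ cj x V) := Nat.card_pos
  nlinarith

/-- **T11.** -/
theorem stIdx : StIdx.{u} := by
  intro Ω _ S _ hS F _ K _ _ V T x c hq hT _
  have h2 : Fact (Nat.Prime 2) := ⟨Nat.prime_two⟩
  have hTS := T_le c
  set N := S ⊓ Subgroup.normalizer (T : Set Ω) with hN
  have hTN : T ≤ N := le_inf hTS Subgroup.le_normalizer
  have memN : ∀ g ∈ N, g ∈ T ∨ x⁻¹ * g ∈ T := by
    intro g hg
    apply norm_T c hT hg.1
    rintro _ ⟨v, hv, rfl⟩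
    exact (Subgroup.mem_normalizer_iff.1 hg.2 v).1 (V_le_T c hv)
  have hxN : x ∈ N := ⟨c.x_mem, c.x_nor⟩
  -- `N_S(T) = S`
  have hNS : N = S := by
    by_contra hne
    obtain ⟨g, hg, hgN⟩ := SetLike.exists_of_lt (lt_inf_normalizer hS (inf_le_left : N ≤ S) le_rfl hne)
    apply hgN
    have hle : ∀ k ∈ S, k ∈ Subgroup.normalizer (N : Set Ω) → cj k V ≤ T := by
      intro k hk hkN
      apply cj_le c hq hT hk
      rintro _ ⟨v, hv, rfl⟩
      exact memN _ ((Subgroup.mem_normalizer_iff.1 hkN v).1 (hTN (V_le_T c hv)))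
    have hgV : cj g V ≤ T := hle g hg.1 hg.2
    have hgW : cj g (cj x V) ≤ T := by
      rw [← cj_mul]
      refine hle (g * x) (S.mul_mem hg.1 c.x_mem) ((Subgroup.normalizer (N : Set Ω)).mul_mem hg.2 ?_)
      exact Subgroup.le_normalizer hxN
    have hgT : cj g T ≤ T := by
      have h3 : cj g T = cj g V ⊔ cj g (cj x V) := by
        conv_lhs => rw [hT]
        exact Subgroup.map_sup _ _ _
      rw [h3]
      exact sup_le hgV hgW
    have hfT : Finite T := finite_of_le hTS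
    have hgT' : cj g T = T := Subgroup.eq_of_le_of_card_ge hgT (by rw [card_cj])
    refine ⟨hg.1, Subgroup.mem_normalizer_iff.2 fun t => ?_⟩
    constructor
    · intro ht
      exact hgT (conj_mem_cj ht)
    · intro ht
      have ht' : g * t * g⁻¹ ∈ cj g T := by rw [hgT']; exact ht
      rw [mem_cj] at ht'
      have : g⁻¹ * (g * t * g⁻¹) * g = t := by group
      rwa [this] at ht'
  have memS : ∀ g ∈ S, g ∈ T ∨ x⁻¹ * g ∈ T := fun g hg => memN g (hNS ▸ hg)
  show (T.subgroupOf S).index = 2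
  rw [Subgroup.index_eq_two_iff]
  refine ⟨⟨x, c.x_mem⟩, fun a => ?_⟩
  have hxT : x * x ∈ T := by rw [← pow_two]; exact c.x_sq
  by_cases h3 : (a : Ω) ∈ T
  · refine Or.inr ⟨h3, fun h4 => c.x_not ?_⟩
    have h5 : (a : Ω) * x ∈ T := h4
    have : x = (a : Ω)⁻¹ * (a * x) := by group
    rw [this]
    exact T.mul_mem (T.inv_mem h3) h5
  · refine Or.inl ⟨?_, h3⟩
    have h4 := (memS a a.2).resolve_left h3
    show (a : Ω) * x ∈ T
    have e : (a : Ω) * x = x * x * (x⁻¹ * (x⁻¹ * a) * x) := by group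
    rw [e]
    exact T.mul_mem hxT (x_T' c h4)

end

end Cfsg.Agent.H456.HM
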