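import Cfsg.Agent.H802.FusEss
import Cfsg.Agent.H744.EssRad
import Cfsg.Agent.H783.ChainStab

/-!
# Chains in essential subgroups; two involutions (helper456)

* `mem_of_chain3` : an element of `N_S(R)` acting trivially on the factors of an `Aut_F(R)`-invariant chain
  `1 ≤ A ≤ B ≤ R` of an essential subgroup `R` lies in `R`;
* `ess_odd` : the strongly embedded subgroup.
-/

set_option autoImplicit false

namespace Cfsg.Agent.H456.HM

open Cfsg Cfsg.FusionSystem Cfsg.Agent.H802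

section chain

variable {R : Type*} [Group R]

/-- the stabilizer of the chain `1 ≤ A ≤ B ≤ R` in a group `X` of automorphisms -/
def chain3 (X : Subgroup (MulAut R)) (A B : Subgroup R) (hA : ∀ α ∈ X, ∀ a ∈ A, α a ∈ A)
    (hB : ∀ α ∈ X, ∀ b ∈ B, α b ∈ B) (_hAB : A ≤ B) : Subgroup X where
  carrier := {α | (∀ r : R, r⁻¹ * (α : MulAut R) r ∈ B) ∧ (∀ b ∈ B, b⁻¹ * (α : MulAut R) b ∈ A) ∧
    ∀ a ∈ A, (α : MulAut R) a = a}
  one_mem' := ⟨fun r => by simp, fun b _ => by simp, fun a _ => rfl⟩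
  mul_mem' := by
    rintro α β ⟨h1, h2, h3⟩ ⟨h4, h5, h6⟩
    refine ⟨fun r => ?_, fun b hb => ?_, fun a ha => ?_⟩
    · have e : r⁻¹ * ((α * β : X) : MulAut R) r = (r⁻¹ * (α : MulAut R) r) * (α : MulAut R) (r⁻¹ * (β : MulAut R) r) := by
        rw [map_mul, map_inv, Subgroup.coe_mul, MulAut.mul_apply]
        group
      rw [e]
      exact B.mul_mem (h1 r) (hB α α.2 _ (h4 r))
    · have e : b⁻¹ * ((α * β : X) : MulAut R) b = (b⁻¹ * (α : MulAut R) b) * (α : MulAut R) (b⁻¹ * (β : MulAut R) b) := by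
        rw [map_mul, map_inv, Subgroup.coe_mul, MulAut.mul_apply]
        group
      rw [e]
      exact A.mul_mem (h2 b hb) (hA α α.2 _ (h5 b hb))
    · rw [Subgroup.coe_mul, MulAut.mul_apply, h6 a ha, h3 a ha]
  inv_mem' := by
    rintro α ⟨h1, h2, h3⟩
    refine ⟨fun r => ?_, fun b hb => ?_, fun a ha => ?_⟩
    · have e : r⁻¹ * ((α⁻¹ : X) : MulAut R) r = ((α⁻¹ : X) : MulAut R) ((r⁻¹ * (α : MulAut R) r)⁻¹) := by
        rw [mul_inv_rev, inv_inv, map_mul, map_inv, Subgroup.coe_inv, MulAut.inv_apply_self]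
      rw [e]
      exact hB _ (α⁻¹).2 _ (B.inv_mem (h1 r))
    · have e : b⁻¹ * ((α⁻¹ : X) : MulAut R) b = ((α⁻¹ : X) : MulAut R) ((b⁻¹ * (α : MulAut R) b)⁻¹) := by
        rw [mul_inv_rev, inv_inv, map_mul, map_inv, Subgroup.coe_inv, MulAut.inv_apply_self]
      rw [e]
      exact hA _ (α⁻¹).2 _ (A.inv_mem (h2 b hb))
    · rw [Subgroup.coe_inv, MulAut.inv_apply]
      exact (MulEquiv.symm_apply_eq _).2 (h3 a ha).symm

theorem chain3_normal (X : Subgroup (MulAut R)) (A B : Subgroup R) (hA : ∀ α ∈ X, ∀ a ∈ A, α a ∈ A)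
    (hB : ∀ α ∈ X, ∀ b ∈ B, α b ∈ B) (hAB : A ≤ B) : (chain3 X A B hA hB hAB).Normal := by
  refine ⟨?_⟩
  rintro α ⟨h1, h2, h3⟩ β
  have key : ∀ r : R, r⁻¹ * ((β * α * β⁻¹ : X) : MulAut R) r =
      (β : MulAut R) (((β⁻¹ : X) : MulAut R) r)⁻¹ * (β : MulAut R) ((α : MulAut R) (((β⁻¹ : X) : MulAut R) r)) := by
    intro r
    rw [map_inv, Subgroup.coe_inv, MulAut.apply_inv_self]
    rfl
  refine ⟨fun r => ?_, fun b hb => ?_, fun a ha => ?_⟩
  · rw [key, ← map_mul]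
    exact hB β β.2 _ (h1 _)
  · rw [key, ← map_mul]
    exact hA β β.2 _ (h2 _ (hB _ (β⁻¹).2 b hb))
  · have h4 : ((β * α * β⁻¹ : X) : MulAut R) a = (β : MulAut R) ((α : MulAut R) (((β⁻¹ : X) : MulAut R) a)) := rfl
    rw [h4, h3 _ (hA _ (β⁻¹).2 a ha), Subgroup.coe_inv, MulAut.apply_inv_self]

theorem isPGroup_chain3 {p : ℕ} [Fact p.Prime] [Finite R] (hR : IsPGroup p R) (X : Subgroup (MulAut R))
    (A B : Subgroup R) (hA : ∀ α ∈ X, ∀ a ∈ A, α a ∈ A)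
    (hB : ∀ α ∈ X, ∀ b ∈ B, α b ∈ B) (hAB : A ≤ B) : IsPGroup p (chain3 X A B hA hB hAB) := by
  rintro ⟨α, h1, h2, h3⟩
  obtain ⟨n, hn⟩ := IsPGroup.iff_card.1 hR
  refine ⟨n + n, Subtype.ext (Subtype.ext (MulEquiv.ext fun x => ?_))⟩
  show (((α : MulAut R) ^ p ^ (n + n))) x = x
  -- on `B`
  have hpB : ∀ (k : ℕ), ∀ b ∈ B, ((α : MulAut R) ^ k) b = b * (b⁻¹ * (α : MulAut R) b) ^ k := by
    intro k b hb
    induction k with
    | zero => simp
    | succ k ih =>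
      rw [pow_succ', MulAut.mul_apply, ih, map_mul, map_pow, h3 _ (h2 b hb), pow_succ', ← mul_assoc,
        mul_inv_cancel_left]
  have hfix : ∀ b ∈ B, ((α : MulAut R) ^ p ^ n) b = b := by
    intro b hb
    rw [hpB _ b hb, ← hn, pow_card_eq_one', mul_one]
  obtain ⟨β, hβ⟩ : ∃ β : X, β = α ^ p ^ n := ⟨_, rfl⟩
  have hβ' : (β : MulAut R) = (α : MulAut R) ^ p ^ n := by rw [hβ]; rfl
  have hβm : β ∈ chain3 X A B hA hB hAB := by
    rw [hβ]
    exact (chain3 X A B hA hB hAB).pow_mem ⟨h1, h2, h3⟩ _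
  have hst : (β : MulAut R) ∈ Cfsg.Agent.H783.chainStab B :=
    ⟨fun b hb => by rw [hβ']; exact hfix b hb, hβm.1⟩
  rw [pow_add, pow_mul, ← hβ', Cfsg.Agent.H783.chainStab_pow hst, ← hn, pow_card_eq_one', mul_one]

end chain

variable {Ω : Type*} [Group Ω] {S : Subgroup Ω}

theorem ess_le {p : ℕ} {F : FusionSystem S} {R : Subgroup Ω} (hR : F.IsEssential p R) : R ≤ S := hR.1.1

theorem ess_cent {p : ℕ} {F : FusionSystem S} {R : Subgroup Ω} (hR : F.IsEssential p R) {g : Ω} (hg : g ∈ S)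
    (h : ∀ r ∈ R, g * r = r * g) : g ∈ R :=
  hR.1.2 R (isConj_refl F hR.1.1) ⟨hg, Subgroup.mem_centralizer_iff.2 fun r hr => (h r hr).symm⟩

/-- a normal `p`-subgroup of `Aut_F(R)` lies in `Inn R` -/
theorem ess_core {p : ℕ} [Fact p.Prime] [Finite S] {F : FusionSystem S} {R : Subgroup Ω}
    (hR : F.IsEssential p R) (N : Subgroup (F.autGroup R)) (hNn : N.Normal) (hN : IsPGroup p N) :
    ∀ α ∈ N, (α : MulAut R) ∈ Inn R := by
  have hle := ess_le hR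
  have : Finite R := finite_of_le hle
  obtain ⟨-, -, hn, E, hE⟩ := hR
  have h1 := Cfsg.Agent.H744.eq_bot_of_normal_of_stronglyPEmbedded hE
    (hNn.map (QuotientGroup.mk' ((Inn R).subgroupOf (F.autGroup R))) (QuotientGroup.mk'_surjective _)) (hN.map _)
  rw [Subgroup.map_eq_bot_iff, QuotientGroup.ker_mk'] at h1
  exact fun α hα => h1 hα

/-- **Principle (P).** -/
theorem mem_of_chain3 {p : ℕ} [Fact p.Prime] [Finite S] (hS : IsPGroup p S) {F : FusionSystem S} {R : Subgroup Ω}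
    (hR : F.IsEssential p R) (A B : Subgroup Ω) (hAB : A ≤ B) (hBR : B ≤ R)
    (hA : ∀ α ∈ F.autGroup R, ∀ r : R, (r : Ω) ∈ A → ((α r : R) : Ω) ∈ A)
    (hB : ∀ α ∈ F.autGroup R, ∀ r : R, (r : Ω) ∈ B → ((α r : R) : Ω) ∈ B) {g : Ω} (hg : g ∈ S)
    (h1 : ∀ r ∈ R, g * r * g⁻¹ * r⁻¹ ∈ B) (h2 : ∀ b ∈ B, g * b * g⁻¹ * b⁻¹ ∈ A) (h3 : ∀ a ∈ A, g * a = a * g) :
    g ∈ R := by
  have hRS := ess_le hR
  have hfR : Finite R := finite_of_le hRS
  have hnorm : ∀ r ∈ R, g * r * g⁻¹ ∈ R := by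
    intro r hr
    have : g * r * g⁻¹ = (g * r * g⁻¹ * r⁻¹) * r := by group
    rw [this]
    exact R.mul_mem (hBR (h1 r hr)) hr
  have hgN : g ∈ Subgroup.normalizer (R : Set Ω) := by
    have hcj : R.map (MulAut.conj g).toMonoidHom = R := by
      apply Subgroup.eq_of_le_of_card_ge
      · rintro _ ⟨r, hr, rfl⟩
        exact hnorm r hr
      · rw [← Nat.card_congr (R.equivMapOfInjective _ (MulAut.conj g).injective).toEquiv]
    rw [Subgroup.mem_normalizer_iff]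
    intro r
    constructor
    · exact hnorm r
    · intro hr
      rw [← hcj] at hr
      obtain ⟨s, hs, hs'⟩ := hr
      have : s = r := by
        have : g * s * g⁻¹ = g * r * g⁻¹ := hs'
        exact mul_left_cancel (mul_right_cancel this)
      rwa [← this]
  obtain ⟨κ, hκ⟩ := exists_conjAut hgN
  have hκS : κ ∈ autInducedBy S R := conj_mem_autInducedBy hg hκ
  have hκX := autInducedBy_le_autGroup F hRS hκS
  -- `A` and `B` are normal in `R`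
  have hinn : ∀ r : R, (MulAut.conj r : MulAut R) ∈ F.autGroup R := fun r => inn_le_autGroup F hRS ⟨r, rfl⟩
  have nA : ∀ r ∈ R, ∀ a ∈ A, r * a * r⁻¹ ∈ A := fun r hr a ha => hA _ (hinn ⟨r, hr⟩) ⟨a, hBR (hAB ha)⟩ ha
  have nB : ∀ r ∈ R, ∀ a ∈ B, r * a * r⁻¹ ∈ B := fun r hr a ha => hB _ (hinn ⟨r, hr⟩) ⟨a, hBR ha⟩ ha
  set C := chain3 (F.autGroup R) (A.subgroupOf R) (B.subgroupOf R) (fun α hα a ha => hA α hα a ha)
    (fun α hα a ha => hB α hα a ha) (fun a ha => hAB ha) with hC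
  have hCn : C.Normal := chain3_normal _ _ _ _ _ _
  have hCp : IsPGroup p C := isPGroup_chain3 (hS.to_le hRS) _ _ _ _ _ _
  have hκC : (⟨κ, hκX⟩ : F.autGroup R) ∈ C := by
    refine ⟨fun r => ?_, fun b hb => ?_, fun a ha => ?_⟩
    · show ((r⁻¹ * κ r : R) : Ω) ∈ B
      rw [Subgroup.coe_mul, hκ]
      have e : ((r⁻¹ : R) : Ω) * (g * r * g⁻¹) = (r : Ω)⁻¹ * (g * r * g⁻¹ * (r : Ω)⁻¹) * ((r : Ω)⁻¹)⁻¹ := by
        rw [Subgroup.coe_inv]; group
      rw [e]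
      exact nB _ (R.inv_mem r.2) _ (h1 r r.2)
    · show ((b⁻¹ * κ b : R) : Ω) ∈ A
      rw [Subgroup.coe_mul, hκ]
      have e : ((b⁻¹ : R) : Ω) * (g * b * g⁻¹) = (b : Ω)⁻¹ * (g * b * g⁻¹ * (b : Ω)⁻¹) * ((b : Ω)⁻¹)⁻¹ := by
        rw [Subgroup.coe_inv]; group
      rw [e]
      exact nA _ (R.inv_mem b.2) _ (h2 b hb)
    · apply Subtype.ext
      show ((κ a : R) : Ω) = a
      rw [hκ, h3 a ha, mul_inv_cancel_right]
  have h4 := ess_core hR C hCn hCp _ hκC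
  exact mem_of_conj_mem_inn hRS (hR.1.2 R (isConj_refl F hRS)) hg hκ h4

/-- two involutions in different conjugates of a strongly embedded subgroup -/
theorem odd_mul {X : Type*} [Group X] [Finite X] {E : Subgroup X} (hE : EvenType.StrongP.NormIn 2 E) {g : X}
    (hg : g ∉ E) {a b : X} (ha : a ∈ E) (ha1 : a ≠ 1) (ha2 : a * a = 1)
    (hb : b ∈ E.map (MulAut.conj g).toMonoidHom) (hb1 : b ≠ 1) (hb2 : b * b = 1) : Odd (orderOf (a * b)) := by
  have h2 : Fact (Nat.Prime 2) := ⟨Nat.prime_two⟩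
  rw [← Nat.not_even_iff_odd]
  intro hev
  obtain ⟨m, hm⟩ := hev
  have hpos := orderOf_pos (a * b)
  set j := (a * b) ^ m with hj
  have hj2 : j * j = 1 := by rw [hj, ← pow_add, ← hm, pow_orderOf_eq_one]
  have hj1 : j ≠ 1 := by
    intro h
    have h3 := Nat.le_of_dvd (by omega) (orderOf_dvd_of_pow_eq_one h)
    omega
  have hinv : ∀ c d : X, c * c = 1 → d * d = 1 → ∀ k : ℕ, c * (c * d) ^ k * c⁻¹ = ((c * d) ^ k)⁻¹ := by
    intro c d hc hd k
    have h3 : c * (c * d) * c⁻¹ = (c * d)⁻¹ := by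
      rw [mul_inv_rev, ← mul_assoc, hc, one_mul, inv_eq_of_mul_eq_one_left hd]
    have h4 : c * (c * d) ^ k * c⁻¹ = (c * (c * d) * c⁻¹) ^ k := by rw [conj_pow]
    rw [h4, h3, inv_pow]
  have hjinv : j⁻¹ = j := inv_eq_of_mul_eq_one_left hj2
  have hja : a * j = j * a := by
    have h3 := hinv a b ha2 hb2 m
    rw [← hj, hjinv] at h3
    calc a * j = a * j * a⁻¹ * a := by group
      _ = j * a := by rw [h3]
  have hjb : b * j = j * b := by
    -- `j = (ab)^m = ((ba)^m)⁻¹`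
    have h3 : (b * a) ^ m = j⁻¹ := by
      rw [hj, ← inv_pow, mul_inv_rev, inv_eq_of_mul_eq_one_left ha2, inv_eq_of_mul_eq_one_left hb2]
    have h4 := hinv b a hb2 ha2 m
    rw [h3, hjinv, hjinv] at h4
    calc b * j = b * j * b⁻¹ * b := by group
      _ = j * b := by rw [h4]
  have hmem : ∀ (Y : Subgroup X), EvenType.StrongP.NormIn 2 Y → ∀ c ∈ Y, c ≠ 1 → c * c = 1 → c * j = j * c → j ∈ Y := by
    intro Y hY c hc hc1 hc2 hcj
    have h3 : IsPGroup 2 (Subgroup.zpowers c) := IsPGroup.of_card (n := 1) (by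
      rw [Nat.card_zpowers, pow_one]
      exact orderOf_eq_prime (by rw [pow_two, hc2]) hc1)
    refine hY _ h3 (by rwa [Subgroup.zpowers_le]) (by rwa [Ne, Subgroup.zpowers_eq_bot]) ?_
    rw [Subgroup.mem_normalizer_iff]
    intro y
    have h4 : ∀ y ∈ Subgroup.zpowers c, j * y * j⁻¹ = y := by
      rintro _ ⟨k, rfl⟩
      have h5 : Commute j (c ^ k) := (show Commute j c from hcj.symm).zpow_right k
      show j * c ^ k * j⁻¹ = c ^ k
      rw [h5.eq, mul_inv_cancel_right]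
    constructor
    · intro hy
      rw [h4 y hy]
      exact hy
    · intro hy
      have h5 := h4 _ hy
      have h6 : j * y * j⁻¹ = y := by
        have h7 : j * (j * y * j⁻¹) * j⁻¹ = j * y * j⁻¹ := h5
        have h8 := mul_right_cancel h7
        have h9 := mul_left_cancel h8
        exact h9
      rwa [h6] at hy
  have h3 : j ∈ E ⊓ E.map (MulAut.conj g).toMonoidHom :=
    ⟨hmem E hE a ha ha1 ha2 hja, hmem _ (hE.conj g) b hb hb1 hb2 hjb⟩
  apply hE.inter hg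
  have h4 : orderOf (⟨j, h3⟩ : ↥(E ⊓ E.map (MulAut.conj g).toMonoidHom)) = 2 := by
    rw [Subgroup.orderOf_mk]
    exact orderOf_eq_prime (by rw [pow_two, hj2]) hj1
  rw [← h4]
  exact orderOf_dvd_natCard _

/-- **The strongly embedded subgroup of an essential automizer.** -/
theorem ess_odd [Finite S] (hS : IsPGroup 2 S) {F : FusionSystem S} (hF : F.IsSaturated 2) {Q : Subgroup Ω}
    (hQ : F.IsEssential 2 Q) :
    ∃ M : Subgroup (MulAut Q), M ≤ F.autGroup Q ∧ M ≠ F.autGroup Q ∧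
      ∀ α ∈ F.autGroup Q, α ∉ M → ∀ τ ∈ autInducedBy S Q, ∀ τ' ∈ autInducedBy S Q, τ ∉ Inn Q → τ' ∉ Inn Q →
        τ * τ ∈ Inn Q → τ' * τ' ∈ Inn Q → ∃ n : ℕ, Odd n ∧ (τ * (α * τ' * α⁻¹)) ^ n ∈ Inn Q := by
  have h2 : Fact (Nat.Prime 2) := ⟨Nat.prime_two⟩
  obtain ⟨hQc, hQn, hnormal, E, hE⟩ := hQ
  have hQS := hQn.1
  have hfinQ : Finite Q := finite_of_le hQS
  set A := F.autGroup Q with hA
  obtain ⟨R, hR⟩ : ∃ R : Sylow 2 A, (R : Subgroup A) = (autInducedBy S Q).subgroupOf A :=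
    (isFullyAutomized_of_isFullyNormalized hS hF hQn).2
  set I := (Inn Q).subgroupOf A with hI
  set π : A →* A ⧸ I := QuotientGroup.mk' I with hπ
  have hπs : Function.Surjective π := QuotientGroup.mk'_surjective I
  have hker : ∀ a : A, π a = 1 ↔ (a : MulAut Q) ∈ Inn Q := by
    intro a
    rw [hπ, QuotientGroup.mk'_apply, QuotientGroup.eq_one_iff, hI, Subgroup.mem_subgroupOf]
  set P : Sylow 2 (A ⧸ I) := R.mapSurjective hπs with hP
  obtain ⟨hdvd, htop, P₀, hP₀⟩ := hE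
  have hP₀E : (P₀ : Subgroup (A ⧸ I)) ≤ E := EvenType.StrongP.sylow_le hdvd hP₀
  have hN₀ := EvenType.StrongP.normIn_of_core hdvd hP₀
  obtain ⟨b, hb⟩ := MulAction.exists_smul_eq (A ⧸ I) P₀ P
  set E₁ := E.map (MulAut.conj b).toMonoidHom with hE₁
  have hN₁ : EvenType.StrongP.NormIn 2 E₁ := hN₀.conj b
  have hPE : (P : Subgroup (A ⧸ I)) ≤ E₁ := by
    rw [← hb, Sylow.coe_subgroup_smul]
    rintro _ ⟨x, hx, rfl⟩
    exact ⟨x, hP₀E hx, rfl⟩
  have hE₁top : E₁ ≠ ⊤ := by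
    intro h
    apply htop
    rw [eq_top_iff]
    intro y _
    have h1 : b * y * b⁻¹ ∈ E₁ := by rw [h]; exact Subgroup.mem_top _
    rw [hE₁, EvenType.StrongP.mem_map_conj] at h1
    have e : b⁻¹ * (b * y * b⁻¹) * b = y := by group
    rwa [e] at h1
  have hmemP : ∀ (γ : MulAut Q) (_ : γ ∈ autInducedBy S Q) (hγA : γ ∈ A),
      π ⟨γ, hγA⟩ ∈ (P : Subgroup (A ⧸ I)) := by
    intro γ hγ hγA
    have : π ⟨γ, hγA⟩ ∈ (R : Subgroup A).map π := ⟨⟨γ, hγA⟩, by rw [hR]; exact hγ, rfl⟩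
    exact this
  refine ⟨(E₁.comap π).map A.subtype, ?_, ?_, ?_⟩
  · rintro _ ⟨a, -, rfl⟩
    exact a.2
  · intro h
    apply hE₁top
    rw [eq_top_iff]
    intro y _
    obtain ⟨a, rfl⟩ := hπs y
    have h1 : (a : MulAut Q) ∈ (E₁.comap π).map A.subtype := by rw [h]; exact a.2
    obtain ⟨a', ha', hae⟩ := h1
    have : a' = a := Subtype.ext hae
    rw [← this]
    exact ha'
  · intro α hα hαM τ hτ τ' hτ' hτ1 hτ'1 hτ2 hτ'2
    have hτA := autInducedBy_le_autGroup F hQS hτ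
    have hτ'A := autInducedBy_le_autGroup F hQS hτ'
    have hg : π ⟨α, hα⟩ ∉ E₁ := fun h => hαM ⟨⟨α, hα⟩, h, rfl⟩
    obtain ⟨α', hα'⟩ : ∃ α' : A, α' = ⟨α, hα⟩ := ⟨_, rfl⟩
    obtain ⟨t, ht⟩ : ∃ t : A, t = ⟨τ, hτA⟩ := ⟨_, rfl⟩
    obtain ⟨t', ht'⟩ : ∃ t' : A, t' = ⟨τ', hτ'A⟩ := ⟨_, rfl⟩
    rw [← hα'] at hg
    have h3 : Odd (orderOf (π t * (π α' * π t' * (π α')⁻¹))) := by
      refine odd_mul hN₁ hg (hPE ?_) ?_ ?_ ?_ ?_ ?_
      · rw [ht]; exact hmemP τ hτ hτA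
      · rw [Ne, hker, ht]; exact hτ1
      · rw [← map_mul, hker, ht]; exact hτ2
      · refine ⟨π t', hPE ?_, rfl⟩
        rw [ht']; exact hmemP τ' hτ' hτ'A
      · intro h
        rw [conj_eq_one_iff, hker, ht'] at h
        exact hτ'1 h
      · have e : π α' * π t' * (π α')⁻¹ * (π α' * π t' * (π α')⁻¹) = π α' * (π t' * π t') * (π α')⁻¹ := by group
        have h4 : π t' * π t' = 1 := by rw [← map_mul, hker, ht']; exact hτ'2
        rw [e, h4, mul_one, mul_inv_cancel]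
    refine ⟨_, h3, ?_⟩
    have h4 : π ((t * (α' * t' * α'⁻¹)) ^ orderOf (π t * (π α' * π t' * (π α')⁻¹))) = 1 := by
      rw [map_pow, map_mul, map_mul, map_mul, map_inv, pow_orderOf_eq_one]
    rw [hker] at h4
    have e : (((t * (α' * t' * α'⁻¹)) ^ orderOf (π t * (π α' * π t' * (π α')⁻¹)) : A) : MulAut Q) =
        (τ * (α * τ' * α⁻¹)) ^ orderOf (π t * (π α' * π t' * (π α')⁻¹)) := by
      rw [ht, ht', hα']; rfl
    rwa [e] at h4

end Cfsg.Agent.H456.HM
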